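import Cfsg.Agent.H815.QS.Dat
import Cfsg.Agent.H815.QS.Data
import Cfsg.Agent.H201.O8.Out
import Cfsg.Agent.H935.OreO8.Gen
import Cfsg.Agent.H6.QO.Frame
import Cfsg.Agent.StdO8.Uni
import Cfsg.Agent.H63.Plus
import Cfsg.Agent.H63.Asm

/-!
# `2².Ω₈⁺(2)` (helper815)

Every element of every perfect central extension of `Ω₈⁺(2)` by a 2-group is a commutator.
-/

set_option autoImplicit false
set_option maxRecDepth 100000

namespace Cfsg.Agent.H815.QS

open Subgroup Cfsg.Agent.SporadicRecognition.CosetCert Cfsg.Agent.SporadicRecognition.CosetCertHyp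
open Cfsg.Agent.KFacts.OddLift.Basic Cfsg.Agent.OddHalf.D9.EEight Cfsg.Agent.OddHalf.D9.EEight.Id
open Cfsg.Agent.OddHalf.D9.EEight.Id.Core Cfsg.Agent.OddHalf.D9.EEight.Id.Homs Cfsg.Agent.OddHalf.D9.EEight.Id.HomData
open Cfsg.Agent.StdO8.Model Cfsg.Agent.StdO8.Code Cfsg.Agent.StdO8.Aut
open Cfsg.Agent.H777.Ore (IsC AllC)

/-! ### The letters -/

/-- the letters in `Om` -/
noncomputable def xl (i : ℕ) : Om := word (lw i)

/-- the Siegel word of a word in the letters -/
def sw : List ℕ → List (ℕ × ℕ)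
  | [] => []
  | y :: r => (if y % 2 = 0 then lw (y / 2) else (lw (y / 2)).reverse) ++ sw r

theorem ev_xl {r : List ℕ} (h : (r.all fun y => Nat.blt y 14) = true) : ev (lt xl 7) r = word (sw r) := by
  induction r with
  | nil => rfl
  | cons y r ih =>
    rw [List.all_cons, Bool.and_eq_true] at h
    have hy : y < 14 := Nat.le_of_ble_eq_true h.1
    rw [ev_cons, ih h.2, sw, word_append]
    congr 1
    by_cases h2 : y % 2 = 0
    · rw [lt_even xl 7 (by omega) h2, if_pos h2, xl]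
    · rw [lt_odd xl 7 (by omega) (by omega), if_neg h2, word_reverse, xl]

/-- the word is trivial in `Om` -/
def triv (r : List ℕ) : Bool := (r.all fun y => Nat.blt y 14) && same (sw r) []

theorem ev_triv {r : List ℕ} (h : triv r = true) : ev (lt xl 7) r = 1 := by
  rw [triv, Bool.and_eq_true] at h
  rw [ev_xl h.1, word_eq h.2, word_nil]

theorem rels_triv : (Bound.rels.all triv) = true := by decide +kernel

theorem rel_xl : ∀ r ∈ Bound.rels, ev (lt xl 7) r = 1 := fun r hr => ev_triv (List.all_eq_true.1 rels_triv r hr)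

theorem odd_xl (i : ℕ) : Odd (orderOf (xl i)) := by
  by_cases hi : i < 7
  · exact Odd.of_dvd_nat (by decide : Odd 3) (orderOf_dvd_of_pow_eq_one (Main.cube rel_xl hi))
  · have : xl i = 1 := by
      rw [xl]
      match i, hi with
      | 0, h => omega
      | 1, h => omega
      | 2, h => omega
      | 3, h => omega
      | 4, h => omega
      | 5, h => omega
      | 6, h => omega
      | (n + 7), _ => rfl
    rw [this, orderOf_one]
    exact odd_one

theorem tg_chk : (tg.all fun p => (p.2.all fun y => Nat.blt y 14) && same (sw p.2) [p.1]) = true := by decide +kernel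

theorem tgt_eq : Cfsg.Agent.H935.OreO8.tgt = tg.map Prod.fst := by decide +kernel

theorem closure_xl : closure {y | ∃ i < 7, xl i = y} = ⊤ := by
  apply Cfsg.Agent.H935.OreO8.five
  intro p hp
  rw [tgt_eq] at hp
  obtain ⟨t, ht, rfl⟩ := List.mem_map.1 hp
  have h := List.all_eq_true.1 tg_chk t ht
  rw [Bool.and_eq_true] at h
  rw [← word_single, ← word_eq h.2, ← ev_xl h.1]
  have h2 : ∀ r : List ℕ, ev (lt xl 7) r ∈ closure {y | ∃ i < 7, xl i = y} := by
    intro r
    induction r with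
    | nil => exact one_mem _
    | cons y r ih => rw [ev_cons]; exact mul_mem (lt_mem _ _) ih
  exact h2 _

/-! ### Fusion -/

theorem chk_x : (triv w1 && triv w2 && triv (cw d1 w0 w1) && triv (cw d2 w0 w2)) = true := by decide +kernel

theorem chk_t1 : (isOne T1 (cw d1 w0 w1) && isOne T1 (cw d2 w0 w2)) = true := by decide +kernel

theorem chk_t2 : (isOne T2 (cw d1 w0 w1) && isOne T2 (cw d2 w0 w2)) = true := by decide +kernel

theorem card_Om' : Nat.card Om = 174182400 := by rw [Cfsg.Agent.StdO8.Uni.card_Om]; norm_num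

instance : Finite Om := (Nat.card_pos_iff.1 (by rw [card_Om']; norm_num)).2

/-- **the lifts of `x₀` are conjugate** -/
theorem fuse0 {L : Type*} [Group L] {π : L →* Om} (hπ : Cov π) {y ζ : L} (hy : π y = word s0) (hζ : π ζ = 1) :
    IsConj y (y * ζ) := by
  have h0 := chk_x
  rw [Bool.and_eq_true, Bool.and_eq_true, Bool.and_eq_true] at h0
  have h1 := chk_t1
  rw [Bool.and_eq_true] at h1
  have h2 := chk_t2
  rw [Bool.and_eq_true] at h2
  have hs : word s0 = ev (lt xl 7) w0 := by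
    rw [ev_xl (by decide +kernel)]
    exact word_eq (by decide +kernel)
  exact fuse hπ odd_xl closure_xl rel_xl Main.okr_rels rel1 rel2 rel3 Onto.neg_mul_neg Onto.neg_ne_one Onto.neg_comm
    (ev_triv h0.1.1.1) (ev_triv h0.1.1.2) w1_1 w1_2 w1_3 w2_1 w2_2 w2_3 card_Om'
    (ev_triv h0.1.2) (ev_of_isOne tab1 h1.1) (ev_of_isOne tab2 h2.1)
    (ev_triv h0.2) (ev_of_isOne tab1 h1.2) (ev_of_isOne tab2 h2.2) (hy.trans hs) hζ

/-! ### The row -/

open Cfsg.Agent.H6.QO Cfsg.Agent.H51.Mult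

theorem cov_of_pce {L : Type*} [Group L] [Finite L] {π : L →* Om} (hπ : PCE π) : Cov π := by
  have hno : ∀ r : ℕ, r.Prime → r ≠ 2 → NoCov r Om := by
    intro r hr hr2
    obtain ⟨e⟩ := Cfsg.Agent.StdO8.Model.exists_equiv (F := ZMod 2) (by rw [ZMod.card])
    exact (Cfsg.Agent.H63.Plus.noCov_odd_prime (F := ZMod 2) (l := 4) le_rfl hr hr2).congr e
  exact ⟨hπ.surj, hπ.cen, Cfsg.Agent.H63.Asm.isPGroup_two hno hπ, hπ.perf⟩

/-- all lifts of `x` in perfect central extensions are fused -/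
def Fus (x : Om) : Prop := ∀ (L : Type) [Group L] [Finite L] (π : L →* Om), PCE π →
  ∀ y ζ : L, π y = x → π ζ = 1 → IsConj y (y * ζ)

theorem Fus.map {x : Om} (h : Fus x) (φ : Om ≃* Om) : Fus (φ x) := by
  intro L _ _ π hπ y ζ hy hζ
  refine h L (φ.symm.toMonoidHom.comp π) (hπ.congr φ.symm) y ζ ?_ ?_
  · show φ.symm (π y) = x
    rw [hy, MulEquiv.symm_apply_apply]
  · show φ.symm (π ζ) = 1
    rw [hζ, map_one]

theorem fus0 : Fus (word s0) := fun _ _ _ _ hπ _ _ hy hζ => fuse0 (cov_of_pce hπ) hy hζ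

/-- the check of one class -/
def chk (t : ℕ × List (ℕ × ℕ) × List (ℕ × ℕ) × List (ℕ × ℕ)) : Bool :=
  same (t.2.2.1 ++ t.2.1) (t.2.1 ++ s0) && ((t.2.2.1 ++ t.2.2.2 ++ t.2.2.1.reverse ++ t.2.2.2.reverse).all ok &&
    (List.range 8).all fun j =>
      ev (t.2.2.1 ++ t.2.2.2 ++ t.2.2.1.reverse ++ t.2.2.2.reverse) (2 ^ j) == Cfsg.Agent.H612.Ore.col 8 t.1 j)

theorem dat_chk : dat.all chk = true := by decide +kernel

theorem dat_reps : Cfsg.Agent.H201.O8.reps.take 39 = dat.map Prod.fst := by decide +kernel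

/-- every nontrivial element is `x k x⁻¹ k⁻¹` with `x` fused -/
theorem exists_pair (g : Om) : ∃ x k : Om, g = x * k * x⁻¹ * k⁻¹ ∧ Fus x := by
  by_cases hg : g = 1
  · exact ⟨word s0, 1, by rw [hg]; group, fus0⟩
  obtain ⟨c, hc, h, y, hy, rfl⟩ := Cfsg.Agent.H201.O8.coverOm' hg
  rw [dat_reps] at hc
  obtain ⟨t, ht, rfl⟩ := List.mem_map.1 hc
  have h1 := List.all_eq_true.1 dat_chk t ht
  rw [chk, Bool.and_eq_true, Bool.and_eq_true] at h1
  obtain ⟨h2, h3, h4⟩ := h1
  have e1 : y = word t.2.2.1 * word t.2.2.2 * (word t.2.2.1)⁻¹ * (word t.2.2.2)⁻¹ := by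
    rw [← word_reverse, ← word_reverse, ← word_append, ← word_append, ← word_append]
    apply Subtype.ext
    apply eval_eq h3
    intro b hb
    obtain ⟨i, hi, rfl⟩ := Cfsg.Agent.H201.O8.mem_basis hb
    rw [hy i hi, eq_of_beq (List.all_eq_true.1 h4 i (List.mem_range.2 hi))]
  have e2 : word t.2.2.1 = word t.2.1 * word s0 * (word t.2.1)⁻¹ := by
    rw [eq_mul_inv_iff_mul_eq, ← word_append, ← word_append]
    exact word_eq h2
  have hf : Fus (word t.2.2.1) := by
    rw [e2]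
    exact fus0.map (MulAut.conj (word t.2.1))
  refine ⟨cj h (word t.2.2.1), cj h (word t.2.2.2), ?_, hf.map (cj h)⟩
  rw [e1, map_mul, map_mul, map_mul, map_inv, map_inv]

/-- **`2².Ω₈⁺(2)`** -/
theorem rowA_Om : RowA Om := by
  intro L _ _ π hπ g
  obtain ⟨x, k, hg, hf⟩ := exists_pair (π g)
  obtain ⟨y, hy⟩ := hπ.surj x
  refine isC_of_pair (x := y) (k := k) hπ.surj hπ.cen (by rw [hy, hg]) fun ζ hζ => ?_
  exact hf L π hπ y ζ hy hζ

/-- **Row D2 of S2491, S2492.** -/
theorem rowA_pop82 (F : Type) [Field F] [Fintype F] (hF : Fintype.card F = 2) :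
    RowA (Cfsg.POmega F (Cfsg.quadFormPlus 4 F)) := by
  obtain ⟨e⟩ := Cfsg.Agent.StdO8.Model.exists_equiv hF
  exact rowA_Om.congr e.symm

end Cfsg.Agent.H815.QS
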